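import Cfsg.Agent.BpExc.NChev
import Cfsg.Agent.BpExc.Pair
import Cfsg.Agent.H795.SetCent
import Cfsg.Agent.H28.RG.Form

/-!
# S3509, MIX M4, generation by opposite unipotent radicals: abstract part (helper256)

`lam` a functional on the root lattice, `PL`, `NL`, `ZL` the roots with positive, negative, zero value.
-/

set_option autoImplicit false
set_option linter.unusedSectionVars false

namespace Cfsg.Agent.H256.EX

open CoxeterSystem Cfsg.Agent.ChevalleyStructure.CoxeterGeom Cfsg.Agent.Tits.Roots Cfsg.Agent.Tits.Core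
  Cfsg.Agent.Tits.RootComb Cfsg.Agent.Tits.Exchange Cfsg.Agent.Nodes.Reps Cfsg.Agent.Nodes.BNOf
  Cfsg.Agent.Nodes.StabComb Cfsg.Agent.Nodes.Bruhat Cfsg.Agent.Nodes.OppDec Cfsg.Agent.Nodes.LeviDec
  Cfsg.Agent.Nodes.NormalForm Cfsg.Agent.Nodes.SubComb Cfsg.Agent.Nodes.Coroot Cfsg.Agent.KFacts.RgdField
  Cfsg.Agent.BpExc Cfsg.Agent.BpExc.TorCent Cfsg.Agent.BpExc.Tow Cfsg.Agent.BpExc.Fr
open scoped commutatorElement

variable {I W Y : Type*} [Fintype I] [DecidableEq I] [Group W] [Finite W] [Group Y] {M : CoxeterMatrix I}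
  {cs : CoxeterSystem M W} {A : I → I → ℤ} {h : IsCartan M A} {p : ℕ}
  {J : Type*} [Preorder J] {T : J → Subgroup Y} {n : I → Y} {X : J → (I → ℤ) → Subgroup Y}

section sets

variable (cs h) (lam : (I → ℤ) →+ ℤ)

/-- roots with positive value -/
def PL : Set (I → ℤ) := {a | IsRoot cs h a ∧ 0 < lam a}
/-- roots with negative value -/
def NL : Set (I → ℤ) := {a | IsRoot cs h a ∧ lam a < 0}
/-- roots with value zero -/
def ZL : Set (I → ℤ) := {a | IsRoot cs h a ∧ lam a = 0}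

variable {cs h lam}

theorem lam_smul (lam : (I → ℤ) →+ ℤ) (m : ℤ) (a : I → ℤ) : lam (m • a) = m * lam a := by
  rw [map_zsmul, smul_eq_mul]

theorem pl_btw {x y z : I → ℤ} (hx : 0 ≤ lam x) (hy : y ∈ PL cs h lam) (hz : Btwn cs h x y z) : z ∈ PL cs h lam := by
  obtain ⟨h1, m, a, b, hm, ha, hb, e⟩ := hz
  refine ⟨h1, ?_⟩
  have e1 : m * lam z = a * lam x + b * lam y := by
    rw [← lam_smul, e, map_add, lam_smul, lam_smul]
  have h2 : 0 ≤ a * lam x := mul_nonneg ha.le hx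
  have h3 : 0 < b * lam y := mul_pos hb hy.2
  by_contra hcon
  push Not at hcon
  have h4 : m * lam z ≤ 0 := mul_nonpos_of_nonneg_of_nonpos hm.le hcon
  omega

theorem nl_eq_pl : NL cs h lam = PL cs h (-lam) := by
  ext a
  show _ ∧ _ ↔ _ ∧ _
  rw [AddMonoidHom.neg_apply, Left.neg_pos_iff]

theorem zl_neg : ZL cs h (-lam) = ZL cs h lam := by
  ext a
  show _ ∧ _ ↔ _ ∧ _
  rw [AddMonoidHom.neg_apply, neg_eq_zero]

/-- **Dominance.** -/
theorem exists_dom (lam : (I → ℤ) →+ ℤ) : ∃ w : W, ∀ a, IsRoot cs h a → 0 ≤ a → 0 ≤ lam (rep cs h w a) := by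
  obtain ⟨y, hy⟩ := exists_rho (cs := cs) (h := h)
  obtain ⟨w, hmax⟩ := Finite.exists_max (fun w : W => lam (rep cs h w y))
  refine ⟨w, fun a ha h0 => ?_⟩
  obtain ⟨u, i, hau⟩ := ha
  have h1 := hmax (w * rfl' cs u i)
  have h2 : lam (rep cs h (w * rfl' cs u i) y) = lam (rep cs h w y) - cpr cs h y a * lam (rep cs h w a) := by
    rw [rep_mul_apply, rep_rfl'_eq, ← hau, map_sub, map_smul, map_sub, lam_smul]
  rw [h2] at h1
  have h4 := hy a ⟨u, i, hau⟩ h0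
  by_contra hcon
  push Not at hcon
  have := mul_neg_of_pos_of_neg h4 hcon
  omega

end sets

/-! ### the union -/

section Lim

variable (H : Tow cs h p T n X)

include H

/-- `X x` normalises `Sup X S` when `S` absorbs the intervals -/
theorem le_norm {x : I → ℤ} {S : Set (I → ℤ)} (hx : IsRoot cs h x)
    (hS : ∀ y ∈ S, IsRoot cs h y ∧ (x = y ∨ (x ≠ -y ∧ ∀ z, Btwn cs h x y z → z ∈ S))) :
    XL X x ≤ Subgroup.normalizer (RGD.Sup (XL X) S : Set Y) := by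
  intro u hu
  obtain ⟨j₀, hj₀⟩ := H.mem_XL.1 hu
  rw [Subgroup.mem_normalizer_iff]
  intro y
  constructor
  · intro hy
    obtain ⟨j, hj⟩ := H.mem_Sup.1 hy
    obtain ⟨c, h1, h2⟩ := H.dir j₀ j
    exact Sup_le_SupL c S ((Subgroup.mem_normalizer_iff.1 ((H.rgd c).le_normalizer hx hS (H.monoX x h1 hj₀)) y).1
      (H.mono_Sup S h2 hj))
  · intro hy
    obtain ⟨j, hj⟩ := H.mem_Sup.1 hy
    obtain ⟨c, h1, h2⟩ := H.dir j₀ j
    exact Sup_le_SupL c S ((Subgroup.mem_normalizer_iff.1 ((H.rgd c).le_normalizer hx hS (H.monoX x h1 hj₀)) y).2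
      (H.mono_Sup S h2 hj))

/-- the parabolic subgroup normalises its radical -/
theorem le_norm_PL (lam : (I → ℤ) →+ ℤ) {x : I → ℤ} (hx : IsRoot cs h x) (h0 : 0 ≤ lam x) :
    XL X x ≤ Subgroup.normalizer (RGD.Sup (XL X) (PL cs h lam) : Set Y) := by
  refine le_norm H hx fun y hy => ⟨hy.1, Or.inr ⟨?_, fun z hz => pl_btw h0 hy hz⟩⟩
  rintro rfl
  rw [map_neg] at h0
  have := hy.2
  omega

theorem Sup_le_norm_PL (lam : (I → ℤ) →+ ℤ) {S : Set (I → ℤ)} (hS : ∀ x ∈ S, IsRoot cs h x ∧ 0 ≤ lam x) :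
    RGD.Sup (XL X) S ≤ Subgroup.normalizer (RGD.Sup (XL X) (PL cs h lam) : Set Y) :=
  RGD.Sup_le fun x hx => le_norm_PL H lam (hS x hx).1 (hS x hx).2

/-- the reflections of the Levi subgroup -/
theorem exists_rfl_ZL {S : Set (I → ℤ)} (hS : ∀ x ∈ S, IsRoot cs h x) (hneg : ∀ x ∈ S, -x ∈ S) {a : I → ℤ}
    (ha : a ∈ S) : ∃ w i, a = rep cs h w (sr i) ∧ ∃ m ∈ RGD.Sup (XL X) S, Rp cs H.nsys (rfl' cs w i) m := by
  obtain ⟨w, i, hw⟩ := hS a ha
  refine ⟨w, i, hw, ?_⟩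
  obtain ⟨j⟩ := H.ne
  obtain ⟨m, hm, hm'⟩ := TorCent.exists_rfl (H.rgd j) w i
  rw [← hw] at hm
  have h3 : (X j a ⊔ X j (-a)) ≤ RGD.Sup (XL X) S :=
    sup_le ((le_XL j a).trans (RGD.le_Sup ha)) ((le_XL j _).trans (RGD.le_Sup (hneg a ha)))
  have hTn : T j ≤ Subgroup.normalizer ((X j a ⊔ X j (-a) : Subgroup Y) : Set Y) := by
    intro s hs
    rw [mem_normalizer_iff_cj, cj_sup, (H.rgd j).tor a (hS a ha) s hs, (H.rgd j).tor (-a) (hS a ha).neg s hs]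
  have h4 : m ∈ ((T j ⊔ (X j a ⊔ X j (-a)) : Subgroup Y) : Set Y) := hm
  rw [Subgroup.coe_mul_of_left_le_normalizer_right _ _ hTn, Set.mem_mul] at h4
  obtain ⟨s, hs, u, hu, e⟩ := h4
  refine ⟨u, h3 hu, H.rp_up (j := j) ?_⟩
  have h5 := (rp_of_mem (cs := cs) (hN := (H.rgd j).nsys) (inv_mem hs)).mul hm'
  rw [one_mul] at h5
  have h6 : s⁻¹ * m = u := by rw [← e]; group
  rwa [h6] at h5

/-- the elements of `W` represented in the Levi subgroup and fixing `lam` -/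
def VL (lam : (I → ℤ) →+ ℤ) : Subgroup W where
  carrier := {v | (∃ m ∈ RGD.Sup (XL X) (ZL cs h lam), Rp cs H.nsys v m) ∧ ∀ x, lam (rep cs h v x) = lam x}
  one_mem' := ⟨⟨1, one_mem _, rp_one⟩, fun x => by rw [map_one, Module.End.one_apply]⟩
  mul_mem' := by
    rintro a b ⟨⟨m, hm, hm'⟩, h1⟩ ⟨⟨m', hm1, hm2⟩, h2⟩
    exact ⟨⟨m * m', mul_mem hm hm1, hm'.mul hm2⟩, fun x => by rw [rep_mul_apply, h1, h2]⟩
  inv_mem' := by
    rintro a ⟨⟨m, hm, hm'⟩, h1⟩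
    refine ⟨⟨m⁻¹, inv_mem hm, hm'.inv⟩, fun x => ?_⟩
    rw [← h1 (rep cs h a⁻¹ x), ← rep_mul_apply, mul_inv_cancel, map_one, Module.End.one_apply]

theorem exists_rfl_VL (lam : (I → ℤ) →+ ℤ) {a : I → ℤ} (ha : a ∈ ZL cs h lam) :
    ∃ w i, a = rep cs h w (sr i) ∧ rfl' cs w i ∈ VL H lam := by
  obtain ⟨w, i, hw, m, hm, hm'⟩ := exists_rfl_ZL H (S := ZL cs h lam) (fun x hx => hx.1)
    (fun x hx => ⟨hx.1.neg, by rw [map_neg, hx.2, neg_zero]⟩) ha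
  refine ⟨w, i, hw, ⟨m, hm, hm'⟩, fun x => ?_⟩
  rw [rep_rfl'_eq, ← hw, map_sub, lam_smul, ha.2, mul_zero, sub_zero]

/-- Levi part and radical of the positive (negative) part meet trivially -/
theorem inf_trivial (lam : (I → ℤ) →+ ℤ) (hdom : ∀ a, IsRoot cs h a → 0 ≤ a → 0 ≤ lam a) :
    (∀ x ∈ RGD.Sup (XL X) {a | a ∈ ZL cs h lam ∧ 0 ≤ a}, x ∈ RGD.Sup (XL X) (PL cs h lam) → x = 1) ∧
    (∀ x ∈ RGD.Sup (XL X) {a | a ∈ ZL cs h lam ∧ a ≤ 0}, x ∈ RGD.Sup (XL X) (NL cs h lam) → x = 1) := by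
  obtain ⟨v, hv, hpos⟩ := exists_adjust (cs := cs) (h := h) (ZL cs h lam) (VL H lam) (fun a ha => exists_rfl_VL H lam ha)
    (AddEquiv.neg (I → ℤ)) (fun a ha => ha.neg)
  obtain ⟨k, -, hk⟩ := H.exists_rp v
  have hneg : ∀ a ∈ ZL cs h lam, 0 ≤ a → rep cs h v a ≤ 0 := by
    intro a ha h0
    have := hpos a ha h0
    rw [AddEquiv.neg_apply] at this
    exact neg_nonneg.1 this
  have hpl : ∀ a ∈ PL cs h lam, 0 ≤ a := by
    intro a ha
    rcases ha.1.pos_or_neg with h1 | h1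
    · exact h1
    · exfalso
      have h2 := hdom _ ha.1.neg (neg_nonneg.2 h1)
      rw [map_neg] at h2
      have := ha.2
      omega
  have hnl : ∀ a ∈ NL cs h lam, a ≤ 0 := by
    intro a ha
    rcases ha.1.pos_or_neg with h1 | h1
    · exfalso
      have h2 := hdom _ ha.1 h1
      have := ha.2
      omega
    · exact h1
  have hfin : ∀ x : Y, k * x * k⁻¹ = 1 → x = 1 := by
    intro x hx
    have e : x = k⁻¹ * (k * x * k⁻¹) * k := by group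
    rw [e, hx]; group
  constructor
  · intro x h1 h2
    have g1 : k * x * k⁻¹ ∈ RGD.Sup (XL X) (Neg cs h) :=
      H28.RG.conj_SupL H hk (S' := Neg cs h) (fun a ha => ha.1.1) (fun a ha => ⟨ha.1.1.act v, hneg a ha.1 ha.2⟩) h1
    have g2 : k * x * k⁻¹ ∈ RGD.Sup (XL X) (RGD.Pos cs h) :=
      H28.RG.conj_SupL H hk (S' := RGD.Pos cs h) (fun a ha => ha.1)
        (fun a ha => ⟨ha.1.act v, hpl _ ⟨ha.1.act v, by rw [hv.2]; exact ha.2⟩⟩) h2
    exact hfin x (H28.RG.eq_one_of_pos_neg H g2 g1)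
  · intro x h1 h2
    have g1 : k * x * k⁻¹ ∈ RGD.Sup (XL X) (RGD.Pos cs h) :=
      H28.RG.conj_SupL H hk (S' := RGD.Pos cs h) (fun a ha => ha.1.1) (fun a ha => ⟨ha.1.1.act v, by
        have h3 := hneg (-a) ⟨ha.1.1.neg, by rw [map_neg, ha.1.2, neg_zero]⟩ (neg_nonneg.2 ha.2)
        rwa [map_neg, neg_nonpos] at h3⟩) h1
    have g2 : k * x * k⁻¹ ∈ RGD.Sup (XL X) (Neg cs h) :=
      H28.RG.conj_SupL H hk (S' := Neg cs h) (fun a ha => ha.1)
        (fun a ha => ⟨ha.1.act v, hnl _ ⟨ha.1.act v, by rw [hv.2]; exact ha.2⟩⟩) h2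
    exact hfin x (H28.RG.eq_one_of_pos_neg H g1 g2)

end Lim

/-! ### normalising the group generated by two fixed point groups -/

section norm

variable {σ : MulAut Y} {A₀ A₁ A₂ : Subgroup Y}

/-- the group generated by the fixed points of `A₁` and `A₂` -/
def HH (σ : MulAut Y) (A₁ A₂ : Subgroup Y) : Subgroup Y :=
  Subgroup.closure ({y | y ∈ A₁ ∧ σ y = y} ∪ {y | y ∈ A₂ ∧ σ y = y})

theorem mem_HH_left {y : Y} (hy : y ∈ A₁) (hs : σ y = y) : y ∈ HH σ A₁ A₂ := Subgroup.subset_closure (Or.inl ⟨hy, hs⟩)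
theorem mem_HH_right {y : Y} (hy : y ∈ A₂) (hs : σ y = y) : y ∈ HH σ A₁ A₂ := Subgroup.subset_closure (Or.inr ⟨hy, hs⟩)

theorem norm_HH {l : Y} (hl : σ l = l) (h1 : l ∈ Subgroup.normalizer (A₁ : Set Y))
    (h2 : l ∈ Subgroup.normalizer (A₂ : Set Y)) : l ∈ Subgroup.normalizer (HH σ A₁ A₂ : Set Y) := by
  have key : ∀ l : Y, σ l = l → l ∈ Subgroup.normalizer (A₁ : Set Y) → l ∈ Subgroup.normalizer (A₂ : Set Y) →
      ∀ y ∈ HH σ A₁ A₂, l * y * l⁻¹ ∈ HH σ A₁ A₂ := by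
    intro l hl h1 h2 y hy
    have h3 : HH σ A₁ A₂ ≤ (HH σ A₁ A₂).comap (MulAut.conj l).toMonoidHom := by
      conv_lhs => rw [HH]
      rw [Subgroup.closure_le]
      rintro y (⟨hy, hs⟩ | ⟨hy, hs⟩)
      · refine mem_HH_left ((Subgroup.mem_normalizer_iff.1 h1 y).1 hy) ?_
        show σ (l * y * l⁻¹) = l * y * l⁻¹
        rw [map_mul, map_mul, map_inv, hl, hs]
      · refine mem_HH_right ((Subgroup.mem_normalizer_iff.1 h2 y).1 hy) ?_
        show σ (l * y * l⁻¹) = l * y * l⁻¹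
        rw [map_mul, map_mul, map_inv, hl, hs]
    exact h3 hy
  rw [Subgroup.mem_normalizer_iff]
  intro y
  refine ⟨key l hl h1 h2 y, fun hy => ?_⟩
  have h4 := key l⁻¹ (by rw [map_inv, hl]) (inv_mem h1) (inv_mem h2) _ hy
  have e : l⁻¹ * (l * y * l⁻¹) * l⁻¹⁻¹ = y := by group
  rwa [e] at h4

/-- fixed elements of `A₀ A₁` normalise `HH` -/
theorem norm_of_dec (hσ0 : ∀ x ∈ A₀, σ x ∈ A₀) (hσ1 : ∀ x ∈ A₁, σ x ∈ A₁) (hI : ∀ x ∈ A₀, x ∈ A₁ → x = 1)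
    (hn1 : A₀ ≤ Subgroup.normalizer (A₁ : Set Y)) (hn2 : A₀ ≤ Subgroup.normalizer (A₂ : Set Y)) {x : Y}
    (hx : x ∈ A₀ ⊔ A₁) (hs : σ x = x) : x ∈ Subgroup.normalizer (HH σ A₁ A₂ : Set Y) := by
  have h1 : x ∈ ((A₀ ⊔ A₁ : Subgroup Y) : Set Y) := hx
  rw [Subgroup.coe_mul_of_left_le_normalizer_right _ _ hn1, Set.mem_mul] at h1
  obtain ⟨l, hl, u, hu, rfl⟩ := h1
  rw [map_mul] at hs
  have e : l⁻¹ * σ l = u * (σ u)⁻¹ := by
    have : σ l = l * u * (σ u)⁻¹ := by rw [← hs]; group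
    rw [this]; group
  have h2 : l⁻¹ * σ l = 1 := hI _ (mul_mem (inv_mem hl) (hσ0 l hl)) (by
    rw [e]; exact mul_mem hu (inv_mem (hσ1 u hu)))
  have h3 : σ l = l := (inv_mul_eq_one.1 h2).symm
  have h4 : σ u = u := by
    rw [h3] at hs
    exact mul_left_cancel hs
  exact mul_mem (norm_HH h3 (hn1 hl) (hn2 hl)) (Subgroup.le_normalizer (mem_HH_left hu h4))

theorem HH_comm : HH σ A₁ A₂ = HH σ A₂ A₁ := by
  unfold HH
  rw [Set.union_comm]

end norm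

end Cfsg.Agent.H256.EX
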